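import Mathlib

/-!
# The empty ball condition for contribution matrices: definitions
-/

set_option autoImplicit false

namespace Cfsg.Agent.EBall

open scoped InnerProductSpace

/-- `C / q` is a symmetric idempotent matrix satisfying the empty ball inequality. -/
structure Dat {n : ℕ} (q : ℤ) (C : Fin (n + 1) → Fin (n + 1) → ℤ) : Prop where
  pos : 0 < q
  symm : ∀ i j, C i j = C j i
  idem : ∀ i j, ∑ l, C i l * C j l = q * C i j
  eb : ∀ z : Fin (n + 1) → ℤ, -(∑ i, z i * C i 0) ≤ ∑ i, ∑ j, z i * z j * C i j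

variable {E : Type*} [NormedAddCommGroup E] [InnerProductSpace ℝ E]

/-- the dual lattice inside the span -/
def dual (L : AddSubgroup E) : Set E :=
  {x | x ∈ Submodule.span ℝ (L : Set E) ∧ ∀ y ∈ L, ∃ m : ℤ, ⟪x, y⟫_ℝ = m}

/-- finitely many points in each ball -/
def FinB (Γ : Set E) : Prop := ∀ R : ℝ, {x | x ∈ Γ ∧ ‖x‖ ≤ R}.Finite

/-- `L` is a rational subgroup with dual inside `Γ`, `v` is the projection of `e` to the span of
`L` and is a Voronoi vector. -/
structure Good (Γ : Set E) (e : E) (L : AddSubgroup E) (v : E) : Prop where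
  sub : dual L ⊆ Γ
  refl : (L : Set E) ⊆ Submodule.span ℝ (dual L)
  mem : v ∈ Submodule.span ℝ (L : Set E)
  proj : ∀ y ∈ L, ⟪v, y⟫_ℝ = ⟪e, y⟫_ℝ
  eb : ∀ y ∈ L, -⟪e, y⟫_ℝ ≤ ‖y‖ ^ 2

end Cfsg.Agent.EBall
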