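import Cfsg.Agent.EBall.Defs
import Cfsg.Agent.TrP.Four
import Cfsg.Agent.Block.Contrib

/-!
# The contribution matrix of the principal block satisfies the empty ball inequalities
-/

set_option autoImplicit false

namespace Cfsg.Agent.EBall

open Cfsg Cfsg.Agent.Block Cfsg.Agent.Char Cfsg.Agent.TrP
open scoped ComplexConjugate

theorem eb_core {G : Type*} [Group G] [Finite G] {ξ : G → ℂ} (hξ : IsGeneralizedCharacter G ξ)
    (s : Finset G) (hs : ∀ m : ℕ, m.Coprime (Nat.card G) → ∀ g ∈ s, g ^ m ∈ s) {q a b : ℤ} (hq : 0 < q)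
    (h1 : q * ∑ g ∈ s, ξ g = Nat.card G * a) (h2 : q * ∑ g ∈ s, ξ g * conj (ξ g) = Nat.card G * b) :
    -a ≤ b := by
  have h3 := (isGen_one.add (hξ.intCast_smul 2)).card_le_sum_norm_sq s hs fun g _ e => by
    have := isUnit_of_mul (a := 2) (hξ.isIntegral g) (by simpa using e)
    omega
  generalize hT : ∑ g ∈ s, ‖((fun _ : G => (1 : ℂ)) + ((2 : ℤ) : ℂ) • ξ) g‖ ^ 2 = T at h3
  have h4 : (T : ℂ) = s.card + 2 * ∑ g ∈ s, ξ g + 2 * ∑ g ∈ s, conj (ξ g) +
      4 * ∑ g ∈ s, ξ g * conj (ξ g) := by
    rw [← hT, Finset.card_eq_sum_ones]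
    simp only [Complex.ofReal_sum, Nat.cast_sum, Finset.mul_sum, ← Finset.sum_add_distrib]
    refine Finset.sum_congr rfl fun g _ => ?_
    rw [Complex.ofReal_pow, ← Complex.mul_conj']
    simp only [Pi.add_apply, Pi.smul_apply, smul_eq_mul, map_add, map_mul, map_intCast, map_one]
    push_cast
    ring
  have h5 := congrArg conj h1
  simp only [map_mul, map_sum, map_intCast, map_natCast] at h5
  have h6 : (q : ℝ) * T = q * s.card + 4 * (Nat.card G * (a + b)) := by
    have : (q : ℂ) * T = q * s.card + 4 * (Nat.card G * (a + b)) := by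
      rw [h4]; linear_combination 2 * h1 + 2 * h5 + 4 * h2
    exact_mod_cast this
  have h7 : (0 : ℝ) < Nat.card G := Nat.cast_pos.2 Nat.card_pos
  have h8 : (0 : ℝ) < q := Int.cast_pos.2 hq
  have h9 : (0 : ℝ) ≤ a + b := le_of_mul_le_mul_left (by nlinarith) h7
  have : (0 : ℤ) ≤ a + b := by exact_mod_cast h9
  omega

/-- `B = principalBlock M G`, `TrP.exists_en` gives `c` with `En M c`; `q = p ^ blockDefect p B`
(`blockDefect` of `B` is the `p`-adic valuation of `|G|`: `card_defectGroup` + `S4652`, or the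
definition), `C i j = contr p B (c i) (c j)` (Block/Contrib: `contr_comm`, `sum_contr_mul` +
`contr_eq_zero` + `En.rng`, `cast_contr`, `not_pow_succ_dvd_contr` with height of `c 0 = irrOne`
zero).  Empty ball: for `z`, `ξ = cmb c z`, `η = 1 + 2 ξ` is a generalized character without
zeros (`TrP.isUnit_of_mul`), so `IsGeneralizedCharacter.card_le_sum_norm_sq` on
`s` = regular elements (`TrP.card_reg_le`) and on `s` = singular elements (`p ∣ orderOf (g ^ m)`
for `m` coprime to `|G|`) gives `|s| ≤ ∑_{s} ‖1 + 2 ξ‖² = |s| + 4 Re ∑_s ξ + 4 ∑_s ‖ξ‖²`.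
Now `q / |G| * ∑_{reg} ξ conj ξ = ∑ i j, z i z j C i j`, `q / |G| * ∑_{reg} ξ = ∑ i, z i C i 0`
(`cast_contr`, `c 0 = 1`), and the sums over all of `G` are `|G| ∑ z i ^ 2`, `|G| z 0`
(`En.inner`, `En.sum_cmb`).  `idem` of the complement is algebra. -/
theorem exists_dat {G : Type*} [Group G] [Finite G] {p : ℕ} [Fact p.Prime] {M : Ideal AlgInt}
    (hM : IsPModular p M) {n : ℕ} (hk : Nat.card (principalBlock M G) = n + 1) :
    ∃ C : Fin (n + 1) → Fin (n + 1) → ℤ, Dat ((p : ℤ) ^ (Nat.card G).factorization p) C ∧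
      Dat ((p : ℤ) ^ (Nat.card G).factorization p)
        (fun i j => (if i = j then (p : ℤ) ^ (Nat.card G).factorization p else 0) - C i j) ∧
      ¬ (p : ℤ) ∣ C 0 0 := by
  classical
  have := Fintype.ofFinite G
  obtain ⟨c, h⟩ := exists_en hM hk
  have hd : blockDefect p (principalBlock M G) = (Nat.card G).factorization p := by
    rw [blockDefect_eq_of_height_zero (irrOne_mem_principal hM) (blockHeight_one _),
      show charDegree (irrOne G : G → ℂ) = 1 by simp [charDegree]]
    simp
  set q : ℤ := (p : ℤ) ^ (Nat.card G).factorization p with hq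
  have q0 : 0 < q := pow_pos (by exact_mod_cast hM.1.pos) _
  let C : Fin (n + 1) → Fin (n + 1) → ℤ := fun i j => contr p (principalBlock M G) (c i) (c j)
  have sy : ∀ i j, C i j = C j i := fun i j => contr_comm (c i).2.isGen (c j).2.isGen
  have id : ∀ i j, ∑ l, C i l * C j l = q * C i j := fun i j => by
    rw [hq, ← hd, ← sum_contr_mul hM (h.mem i) (h.mem j)]
    refine Fintype.sum_of_injective c h.inj _ _ (fun χ hχ => ?_) fun _ => rfl
    rw [contr_eq_zero hM isPBlock_principal (h.mem i) (h.rng ▸ hχ), zero_mul]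
  have h1 : ∀ i j, (q : ℂ) * ∑ g with ¬ p ∣ orderOf g, (c i : G → ℂ) g * conj ((c j : G → ℂ) g) =
      Nat.card G * C i j := fun i j => by
    rw [cast_contr hM (h.mem i) (c j).2.isGen, hd, mul_left_comm, ← sum_mul_conj_eq, Finset.sum_filter, hq]
    push_cast
    refine congrArg _ (Finset.sum_congr rfl fun g _ => ?_)
    by_cases e : p ∣ orderOf g <;> simp [regPart, e]
  have h2 : ∀ z, (q : ℂ) * ∑ g with ¬ p ∣ orderOf g, cmb c z g = Nat.card G * (∑ i, z i * C i 0 : ℤ) :=
    fun z => by
      simp only [cmb_apply]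
      rw [Finset.sum_comm, Int.cast_sum, Finset.mul_sum, Finset.mul_sum]
      refine Finset.sum_congr rfl fun i _ => ?_
      have := h1 i 0
      simp only [h.zero_apply, map_one, mul_one] at this
      rw [← Finset.mul_sum, mul_left_comm, this]
      push_cast; ring
  have h3 : ∀ z, (q : ℂ) * ∑ g with ¬ p ∣ orderOf g, cmb c z g * conj (cmb c z g) =
      Nat.card G * (∑ i, ∑ j, z i * z j * C i j : ℤ) := fun z => by
    simp only [cmb_apply, map_sum, map_mul, map_intCast, Finset.sum_mul_sum]
    rw [Finset.sum_comm, Int.cast_sum, Finset.mul_sum, Finset.mul_sum]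
    refine Finset.sum_congr rfl fun i _ => ?_
    rw [Finset.sum_comm, Int.cast_sum, Finset.mul_sum, Finset.mul_sum]
    refine Finset.sum_congr rfl fun j _ => ?_
    rw [Finset.sum_congr rfl (g := fun g => (z i * z j : ℂ) * ((c i : G → ℂ) g * conj ((c j : G → ℂ) g)))
      fun g _ => by ring, ← Finset.mul_sum, mul_left_comm, h1]
    push_cast; ring
  refine ⟨C, ⟨q0, sy, id, fun z => eb_core (isGen_cmb c z) _ (fun m _ g hg => ?_) q0 (h2 z) (h3 z)⟩,
    ⟨q0, fun i j => by rw [sy]; simp only [eq_comm], fun i j => ?_, fun z => eb_core (isGen_cmb c z)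
      (Finset.univ.filter fun g => p ∣ orderOf g) (fun m hm g hg => ?_) q0 ?_ ?_⟩, ?_⟩
  · simp only [Finset.mem_filter, Finset.mem_univ, true_and] at hg ⊢
    exact fun e => hg (e.trans (orderOf_pow_dvd m))
  · simp only [sub_mul, mul_sub, Finset.sum_sub_distrib, id, ite_mul, mul_ite, zero_mul, mul_zero,
      Finset.sum_ite_eq, Finset.mem_univ, if_true]
    rw [sy j i]
    by_cases e : i = j
    · subst e; simp [mul_comm]
    · simp [e, mul_comm]
  · simp only [Finset.mem_filter, Finset.mem_univ, true_and] at hg ⊢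
    rwa [(hm.symm.of_dvd_left (orderOf_dvd_natCard g)).orderOf_pow]
  · have h4 := Finset.sum_filter_add_sum_filter_not Finset.univ (fun g : G => p ∣ orderOf g) (cmb c z)
    rw [h.sum_cmb] at h4
    have h5 := h2 z
    simp only [mul_sub, Finset.sum_sub_distrib, mul_ite, mul_zero, Finset.sum_ite_eq', Finset.mem_univ,
      if_true]
    push_cast at h5 ⊢
    linear_combination q * h4 - h5
  · have h4 := Finset.sum_filter_add_sum_filter_not Finset.univ (fun g : G => p ∣ orderOf g)
      fun g => cmb c z g * conj (cmb c z g)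
    rw [sum_mul_conj_eq, h.inner] at h4
    have h5 := h3 z
    simp only [mul_sub, Finset.sum_sub_distrib, mul_ite, mul_zero, Finset.sum_ite_eq, Finset.mem_univ,
      if_true, ← Finset.sum_mul]
    push_cast at h4 h5 ⊢
    linear_combination q * h4 - h5
  · have := not_pow_succ_dvd_contr hM isPBlock_principal (h.mem 0) (h.mem 0)
      (by rw [h.zero]; exact blockHeight_one _)
    rwa [show blockHeight p (principalBlock M G) (c 0 : G → ℂ) = 0 by
      rw [h.zero]; exact blockHeight_one _, zero_add, pow_one] at this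

end Cfsg.Agent.EBall
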