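import Cfsg.Agent.EBall.Defs

/-!
# Ascending chain condition for norms of Voronoi projections

Both the covering bound `cover` and `acc` are proved by induction on the dimension of the span, passing
from `L` to `L ∩ w^⊥` for a primitive vector `w` of the dual.
-/

set_option autoImplicit false

namespace Cfsg.Agent.EBall

open scoped InnerProductSpace

variable {E : Type*} [NormedAddCommGroup E] [InnerProductSpace ℝ E]

/-- `L ∩ w^⊥` -/
def red (L : AddSubgroup E) (w : E) : AddSubgroup E where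
  carrier := {y | y ∈ L ∧ ⟪w, y⟫_ℝ = 0}
  zero_mem' := ⟨zero_mem _, inner_zero_right _⟩
  add_mem' := fun {a b} ha hb => ⟨add_mem ha.1 hb.1, by rw [inner_add_right, ha.2, hb.2, add_zero]⟩
  neg_mem' := fun {a} ha => ⟨neg_mem ha.1, by rw [inner_neg_right, ha.2, neg_zero]⟩

/-- the projection along `w` -/
noncomputable def prj (w x : E) : E := x - (⟪w, x⟫_ℝ / ‖w‖ ^ 2) • w

/-- the projected set -/
def prS (Γ : Set E) (w : E) : Set E := {x' | ∃ x ∈ Γ, x' = prj w x ∧ ‖x‖ ≤ ‖x'‖ + ‖w‖}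

theorem FinB.prS {Γ : Set E} (h : FinB Γ) (w : E) : FinB (prS Γ w) := fun R =>
  ((h (R + ‖w‖)).image (prj w)).subset (by
    rintro x' ⟨⟨x, hx, e, l⟩, hR⟩
    exact ⟨x, ⟨hx, l.trans (by linarith)⟩, e.symm⟩)

theorem inner_prj {w : E} (hw : w ≠ 0) (x : E) : ⟪w, prj w x⟫_ℝ = 0 := by
  have : ‖w‖ ^ 2 ≠ 0 := pow_ne_zero 2 (norm_ne_zero_iff.2 hw)
  rw [prj, inner_sub_right, real_inner_smul_right, real_inner_self_eq_norm_sq, div_mul_cancel₀ _ this, sub_self]

theorem prj_inner {w y : E} (hy : ⟪w, y⟫_ℝ = 0) (x : E) : ⟪prj w x, y⟫_ℝ = ⟪x, y⟫_ℝ := by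
  rw [prj, inner_sub_left, real_inner_smul_left, hy, mul_zero, sub_zero]

theorem prj_add_smul {w x : E} (hw : w ≠ 0) (hx : ⟪w, x⟫_ℝ = 0) (c : ℝ) : prj w (x + c • w) = x := by
  have : ‖w‖ ^ 2 ≠ 0 := pow_ne_zero 2 (norm_ne_zero_iff.2 hw)
  rw [prj, inner_add_right, hx, zero_add, real_inner_smul_right, real_inner_self_eq_norm_sq,
    mul_div_cancel_right₀ _ this, add_sub_cancel_right]

theorem norm_prj {w : E} (hw : w ≠ 0) (x : E) : ‖prj w x‖ ^ 2 = ‖x‖ ^ 2 - ⟪w, x⟫_ℝ ^ 2 / ‖w‖ ^ 2 := by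
  have : ‖w‖ ^ 2 ≠ 0 := pow_ne_zero 2 (norm_ne_zero_iff.2 hw)
  rw [prj, norm_sub_sq_real, real_inner_smul_right, norm_smul, mul_pow, Real.norm_eq_abs, sq_abs,
    real_inner_comm w x]
  field_simp
  ring

theorem inner_span {S : Set E} {a b x : E} (h : ∀ y ∈ S, ⟪a, y⟫_ℝ = ⟪b, y⟫_ℝ) (hx : x ∈ Submodule.span ℝ S) :
    ⟪a, x⟫_ℝ = ⟪b, x⟫_ℝ := by
  induction hx using Submodule.span_induction with
  | mem y hy => exact h y hy
  | zero => rw [inner_zero_right, inner_zero_right]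
  | add x y _ _ h1 h2 => rw [inner_add_right, inner_add_right, h1, h2]
  | smul c x _ h1 => rw [real_inner_smul_right, real_inner_smul_right, h1]

/-- a nonzero dual vector is a multiple of a primitive one -/
theorem exists_prim {L : AddSubgroup E} {w : E} (hw : w ∈ dual L) (w0 : w ≠ 0) :
    ∃ w' ∈ dual L, ‖w'‖ ≤ ‖w‖ ∧ ∃ y ∈ L, ⟪w', y⟫_ℝ = 1 := by
  let I : AddSubgroup ℤ :=
    { carrier := {m | ∃ y ∈ L, ⟪w, y⟫_ℝ = m}
      zero_mem' := ⟨0, zero_mem _, by simp⟩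
      add_mem' := fun ⟨a, ha, ea⟩ ⟨b, hb, eb⟩ => ⟨a + b, add_mem ha hb, by rw [inner_add_right, ea, eb]; simp⟩
      neg_mem' := fun ⟨a, ha, ea⟩ => ⟨-a, neg_mem ha, by rw [inner_neg_right, ea]; simp⟩ }
  obtain ⟨m, hm⟩ := Int.subgroup_cyclic I
  have key : ∀ y ∈ L, ∃ k : ℤ, ⟪w, y⟫_ℝ = k * m := fun y hy => by
    obtain ⟨n, hn⟩ := hw.2 y hy
    have : n ∈ I := ⟨y, hy, hn⟩
    rw [hm, AddSubgroup.mem_closure_singleton] at this
    obtain ⟨k, rfl⟩ := this
    exact ⟨k, by rw [hn]; simp⟩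
  have m0 : (m : ℝ) ≠ 0 := fun e => w0 (by
    have := inner_span (a := w) (b := 0) (fun y hy => by
      obtain ⟨k, hk⟩ := key y hy
      rw [hk, e, mul_zero, inner_zero_left]) hw.1
    rwa [inner_zero_left, inner_self_eq_zero] at this)
  obtain ⟨y, hy, ey⟩ : m ∈ I := hm ▸ AddSubgroup.subset_closure rfl
  refine ⟨(m : ℝ)⁻¹ • w, ⟨Submodule.smul_mem _ _ hw.1, fun z hz => ?_⟩, ?_, y, hy, ?_⟩
  · obtain ⟨k, hk⟩ := key z hz
    exact ⟨k, by rw [real_inner_smul_left, hk]; field_simp⟩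
  · rw [norm_smul, norm_inv, Real.norm_eq_abs]
    refine mul_le_of_le_one_left (norm_nonneg _) (inv_le_one_of_one_le₀ ?_)
    rw [← Int.cast_abs]
    exact_mod_cast Int.one_le_abs (by exact_mod_cast m0)
  · rw [real_inner_smul_left, ey, inv_mul_cancel₀ m0]

section Red

variable {L : AddSubgroup E} {w y : E} (hw : w ∈ dual L) (hy : y ∈ L) (e : ⟪w, y⟫_ℝ = 1)
include e

theorem prim_ne : w ≠ 0 := fun z => by
  rw [z, inner_zero_left] at e
  exact zero_ne_one e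

theorem red_not : y ∉ Submodule.span ℝ (red L w : Set E) := fun h => by
  have := inner_span (a := w) (b := 0) (fun z hz => by rw [hz.2, inner_zero_left]) h
  rw [e, inner_zero_left] at this
  exact one_ne_zero this

include hw hy

theorem red_sub {z : E} (hz : z ∈ L) : ∃ k : ℤ, z - k • y ∈ red L w := by
  obtain ⟨k, hk⟩ := hw.2 z hz
  refine ⟨k, sub_mem hz (zsmul_mem hy k), ?_⟩
  rw [inner_sub_right, ← Int.cast_smul_eq_zsmul ℝ, real_inner_smul_right, e, hk, mul_one, sub_self]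

theorem red_span {x : E} (hx : x ∈ Submodule.span ℝ (L : Set E)) (h0 : ⟪w, x⟫_ℝ = 0) :
    x ∈ Submodule.span ℝ (red L w : Set E) := by
  have key : x - ⟪w, x⟫_ℝ • y ∈ Submodule.span ℝ (red L w : Set E) := by
    clear h0
    induction hx using Submodule.span_induction with
    | mem z hz =>
      obtain ⟨k, hk⟩ := hw.2 z hz
      refine Submodule.subset_span ⟨?_, ?_⟩
      · rw [hk, Int.cast_smul_eq_zsmul]
        exact sub_mem hz (zsmul_mem hy k)
      · rw [inner_sub_right, real_inner_smul_right, e, mul_one, sub_self]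
    | zero => simp
    | add a b _ _ h1 h2 =>
      rw [inner_add_right, add_smul, add_sub_add_comm]
      exact add_mem h1 h2
    | smul c a _ h1 =>
      rw [real_inner_smul_right, mul_smul, ← smul_sub]
      exact Submodule.smul_mem _ c h1
  rwa [h0, zero_smul, sub_zero] at key

theorem red_prj {x : E} (hx : x ∈ Submodule.span ℝ (L : Set E)) :
    prj w x ∈ Submodule.span ℝ (red L w : Set E) :=
  red_span hw hy e (sub_mem hx (Submodule.smul_mem _ _ hw.1)) (inner_prj (prim_ne e) x)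

theorem red_lift {x : E} (hx : x ∈ dual (red L w)) :
    ⟪w, x⟫_ℝ = 0 ∧ ∃ c : ℝ, |c| ≤ 1 / 2 ∧ x + c • w ∈ dual L := by
  refine ⟨(inner_span (a := w) (b := 0) (fun z hz => by rw [hz.2, inner_zero_left]) hx.1).trans
    (inner_zero_left _), round ⟪x, y⟫_ℝ - ⟪x, y⟫_ℝ, by rw [abs_sub_comm]; exact abs_sub_round _,
    add_mem (Submodule.span_mono (fun _ h => h.1) hx.1) (Submodule.smul_mem _ _ hw.1), fun z hz => ?_⟩
  obtain ⟨k, hk⟩ := red_sub hw hy e hz
  obtain ⟨m, hm⟩ := hx.2 _ hk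
  have h2 := hk.2
  rw [inner_sub_right, ← Int.cast_smul_eq_zsmul ℝ, real_inner_smul_right] at hm h2
  refine ⟨m + k * round ⟪x, y⟫_ℝ, ?_⟩
  rw [e] at h2
  rw [inner_add_left, real_inner_smul_left]
  push_cast
  linear_combination hm + (round ⟪x, y⟫_ℝ - ⟪x, y⟫_ℝ : ℝ) * h2

theorem red_dual {Γ : Set E} (h : dual L ⊆ Γ) : dual (red L w) ⊆ prS Γ w := fun x hx => by
  obtain ⟨h0, c, hc, h1⟩ := red_lift hw hy e hx
  refine ⟨_, h h1, (prj_add_smul (prim_ne e) h0 c).symm, (norm_add_le _ _).trans ?_⟩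
  rw [norm_smul, Real.norm_eq_abs]
  nlinarith [norm_nonneg w]

theorem red_refl (h : (L : Set E) ⊆ Submodule.span ℝ (dual L)) :
    (red L w : Set E) ⊆ Submodule.span ℝ (dual (red L w)) := fun z hz => by
  have key : ∀ x ∈ Submodule.span ℝ (dual L), prj w x ∈ Submodule.span ℝ (dual (red L w)) := fun x hx => by
    induction hx using Submodule.span_induction with
    | mem a ha =>
      exact Submodule.subset_span ⟨red_prj hw hy e ha.1, fun b hb => by
        rw [prj_inner hb.2]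
        exact ha.2 b hb.1⟩
    | zero => simp [prj]
    | add a b _ _ h1 h2 =>
      rw [prj, inner_add_right, add_div, add_smul, add_sub_add_comm]
      exact add_mem h1 h2
    | smul c a _ h1 =>
      rw [prj, real_inner_smul_right, mul_div_assoc, mul_smul, ← smul_sub]
      exact Submodule.smul_mem _ c h1
  have := key z (h hz.1)
  rwa [prj, hz.2, zero_div, zero_smul, sub_zero] at this

omit hw in
theorem red_rank [FiniteDimensional ℝ E] : Module.finrank ℝ (Submodule.span ℝ (red L w : Set E)) <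
    Module.finrank ℝ (Submodule.span ℝ (L : Set E)) :=
  Submodule.finrank_lt_finrank_of_lt (lt_of_le_of_ne (Submodule.span_mono fun _ h => h.1) fun h =>
    red_not e (h ▸ Submodule.subset_span hy))

end Red

variable [FiniteDimensional ℝ E]

/-- if the dual has no short vectors then the covering radius is small -/
theorem cover (d : ℕ) : ∀ {Γ : Set E}, FinB Γ → ∀ {L : AddSubgroup E}, dual L ⊆ Γ →
    (L : Set E) ⊆ Submodule.span ℝ (dual L) → Module.finrank ℝ (Submodule.span ℝ (L : Set E)) < d →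
    ∀ {R : ℝ}, 0 < R → (∀ w ∈ dual L, w ≠ 0 → R ≤ ‖w‖) → ∀ x ∈ Submodule.span ℝ (L : Set E),
      ∃ y ∈ L, ‖x - y‖ ≤ 3 ^ d / R := by
  induction d with
  | zero => exact fun _ _ _ _ h => absurd h (Nat.not_lt_zero _)
  | succ d ih =>
    intro Γ hΓ L h1 h2 h3 R hR h4 x hx
    by_cases h5 : ∃ w ∈ dual L, w ≠ 0
    swap
    · have : Submodule.span ℝ (dual L) = ⊥ := Submodule.span_eq_bot.2 fun w hw => by_contra fun z => h5 ⟨w, hw, z⟩
      have h6 : x = 0 := (Submodule.mem_bot ℝ).1 (Submodule.span_le.2 (this ▸ h2) hx)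
      exact ⟨0, zero_mem _, by rw [h6, sub_zero, norm_zero]; positivity⟩
    obtain ⟨w₀, a1, a2⟩ := h5
    obtain ⟨w₁, ⟨b1, b2, b3⟩, b4⟩ := Set.exists_min_image {w | w ∈ dual L ∧ w ≠ 0 ∧ ‖w‖ ≤ ‖w₀‖} (‖·‖)
      ((hΓ ‖w₀‖).subset fun w hw => ⟨h1 hw.1, hw.2.2⟩) ⟨w₀, a1, a2, le_rfl⟩
    obtain ⟨w, hw, c1, y, hy, e⟩ := exists_prim b1 b2
    have w0 := prim_ne e
    have mn : ∀ u ∈ dual L, u ≠ 0 → ‖w‖ ≤ ‖u‖ := fun u hu u0 => by
      by_cases l : ‖u‖ ≤ ‖w₀‖
      · exact c1.trans (b4 u ⟨hu, u0, l⟩)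
      · linarith [not_le.1 l]
    have Rw := h4 w hw w0
    have wp : 0 < ‖w‖ := norm_pos_iff.2 w0
    have hk : x - round ⟪w, x⟫_ℝ • y ∈ Submodule.span ℝ (L : Set E) :=
      sub_mem hx (Submodule.subset_span (zsmul_mem hy _))
    obtain ⟨z, hz, c2⟩ := ih (hΓ.prS w) (red_dual hw hy e h1) (red_refl hw hy e h2)
      (by have := red_rank hy e; omega) (half_pos hR) (fun u hu u0 => by
        obtain ⟨h0, c, hc, h6⟩ := red_lift hw hy e hu
        have h7 := mn _ h6 fun z => u0 (by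
          have := prj_add_smul w0 h0 c
          rw [z] at this
          rw [← this, prj, inner_zero_right, zero_div, zero_smul, sub_zero])
        have h8 := norm_add_le u (c • w)
        rw [norm_smul, Real.norm_eq_abs] at h8
        nlinarith) _ (red_prj hw hy e hk)
    refine ⟨round ⟪w, x⟫_ℝ • y + z, add_mem (zsmul_mem hy _) hz.1, ?_⟩
    have c3 : |⟪w, x - round ⟪w, x⟫_ℝ • y⟫_ℝ| ≤ 1 / 2 := by
      rw [inner_sub_right, ← Int.cast_smul_eq_zsmul ℝ, real_inner_smul_right, e, mul_one]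
      exact abs_sub_round _
    rw [← sub_sub]
    generalize x - round ⟪w, x⟫_ℝ • y = x' at c2 c3
    have c4 : x' - z = prj w x' - z + (⟪w, x'⟫_ℝ / ‖w‖ ^ 2) • w := by
      rw [prj]
      abel
    have c5 : ‖(⟪w, x'⟫_ℝ / ‖w‖ ^ 2) • w‖ ≤ 1 / R := by
      rw [norm_smul, Real.norm_eq_abs, abs_div, abs_pow, abs_norm, pow_two, ← div_div, div_mul_cancel₀ _ wp.ne']
      exact div_le_div₀ zero_le_one (by linarith) hR Rw
    have c6 : (1 : ℝ) ≤ 3 ^ d := one_le_pow₀ (by norm_num)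
    calc ‖x' - z‖ ≤ 3 ^ d / (R / 2) + 1 / R := c4 ▸ (norm_add_le _ _).trans (add_le_add c2 c5)
      _ = (2 * 3 ^ d + 1) / R := by field_simp
      _ ≤ _ := div_le_div_of_nonneg_right (by rw [pow_succ]; linarith) hR.le

theorem Good.short {Γ : Set E} (hΓ : FinB Γ) {e v : E} {L : AddSubgroup E} (h : Good Γ e L v) {c : ℝ}
    (hc : 0 < c) (hv : c ≤ ‖v‖) : ∃ w ∈ dual L, ‖w‖ ≤ 4 * 3 ^ (Module.finrank ℝ E + 1) / c ∧
      ∃ y ∈ L, ⟪w, y⟫_ℝ = 1 := by
  have p : (0 : ℝ) < 3 ^ (Module.finrank ℝ E + 1) := by positivity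
  obtain ⟨w, hw, w0, l⟩ : ∃ w ∈ dual L, w ≠ 0 ∧ ‖w‖ < 4 * 3 ^ (Module.finrank ℝ E + 1) / c := by
    by_contra! k
    obtain ⟨y, hy, l⟩ := cover (Module.finrank ℝ E + 1) hΓ h.sub h.refl
      (Nat.lt_succ_of_le (Submodule.finrank_le _)) (by positivity) k _ (Submodule.smul_mem _ (-(1 / 2) : ℝ) h.mem)
    rw [show (3 : ℝ) ^ (Module.finrank ℝ E + 1) / (4 * 3 ^ (Module.finrank ℝ E + 1) / c) = c / 4 by
      field_simp] at l
    have l2 := pow_le_pow_left₀ (norm_nonneg _) l 2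
    rw [norm_sub_sq_real, real_inner_smul_left, h.proj y hy, norm_smul, mul_pow, Real.norm_eq_abs, sq_abs] at l2
    have l3 := h.eb y hy
    have l4 := pow_le_pow_left₀ hc.le hv 2
    nlinarith [pow_pos hc 2]
  obtain ⟨w', h1, h2, h3⟩ := exists_prim hw w0
  exact ⟨w', h1, h2.trans l.le, h3⟩

theorem acc_aux (e : E) (d : ℕ) : ∀ {Γ : Set E}, FinB Γ → ∀ (L : ℕ → AddSubgroup E) (v : ℕ → E),
    (∀ i, Good Γ e (L i) (v i)) → (∀ i, Module.finrank ℝ (Submodule.span ℝ (L i : Set E)) < d) →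
    ¬ StrictMono fun i => ‖v i‖ ^ 2 := by
  induction d with
  | zero => exact fun _ _ _ _ h => absurd (h 0) (Nat.not_lt_zero _)
  | succ d ih =>
    intro Γ hΓ L v h hd hm
    have c0 : 0 < ‖v 1‖ := by
      have : ‖v 0‖ ^ 2 < ‖v 1‖ ^ 2 := hm zero_lt_one
      exact lt_of_le_of_lt (norm_nonneg _) (lt_of_pow_lt_pow_left₀ 2 (norm_nonneg _) this)
    choose w hw l y hy ey using fun i => (h (i + 1)).short hΓ c0
      (le_of_pow_le_pow_left₀ two_ne_zero (norm_nonneg _) (hm.monotone (Nat.le_add_left 1 i)))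
    have := (hΓ (4 * 3 ^ (Module.finrank ℝ E + 1) / ‖v 1‖)).to_subtype
    obtain ⟨⟨u, hu⟩, hf⟩ := Finite.exists_infinite_fiber fun i =>
      (⟨w i, (h (i + 1)).sub (hw i), l i⟩ : {x | x ∈ Γ ∧ ‖x‖ ≤ 4 * 3 ^ (Module.finrank ℝ E + 1) / ‖v 1‖})
    have hi : {i | w i = u}.Infinite := (Set.infinite_coe_iff.1 hf).mono fun i k => by
      simpa using k
    have n1 := Nat.nth_strictMono hi
    have n2 : ∀ k, w (Nat.nth (fun i => w i = u) k) = u := Nat.nth_mem_of_infinite hi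
    generalize Nat.nth (fun i => w i = u) = n at n1 n2
    have hw' : ∀ k, u ∈ dual (L (n k + 1)) := fun k => n2 k ▸ hw (n k)
    have ey' : ∀ k, ⟪u, y (n k)⟫_ℝ = 1 := fun k => n2 k ▸ ey (n k)
    refine ih (hΓ.prS u) (fun k => red (L (n k + 1)) u) (fun k => prj u (v (n k + 1))) (fun k => ?_)
      (fun k => ?_) fun a b ab => ?_
    · have g := h (n k + 1)
      exact ⟨red_dual (hw' k) (hy _) (ey' k) g.sub, red_refl (hw' k) (hy _) (ey' k) g.refl,
        red_prj (hw' k) (hy _) (ey' k) g.mem, fun z hz => (prj_inner hz.2 _).trans (g.proj z hz.1),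
        fun z hz => g.eb z hz.1⟩
    · have := red_rank (hy _) (ey' k)
      have := hd (n k + 1)
      omega
    · have k : ∀ k, ⟪u, v (n k + 1)⟫_ℝ = ⟪e, u⟫_ℝ := fun k => by
        rw [real_inner_comm]
        exact inner_span (h _).proj (hw' k).1
      have := hm (Nat.succ_lt_succ (n1 ab))
      simp only [norm_prj (prim_ne (ey' 0)), k]
      exact sub_lt_sub_right this _

theorem acc {Γ : Set E} (hΓ : FinB Γ) (e : E) (L : ℕ → AddSubgroup E) (v : ℕ → E)
    (h : ∀ i, Good Γ e (L i) (v i)) : ¬ StrictMono fun i => ‖v i‖ ^ 2 :=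
  acc_aux e (Module.finrank ℝ E + 1) hΓ L v h fun _ => Nat.lt_succ_of_le (Submodule.finrank_le _)

end Cfsg.Agent.EBall
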