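import Cfsg.Agent.EBall.Lat

/-!
# Finiteness of the corner entry
-/

set_option autoImplicit false

namespace Cfsg.Agent.EBall

open scoped InnerProductSpace

/-- `E = EuclideanSpace ℝ (Fin (n+1))`, `Γ` = integer vectors (`FinB`: coordinates are bounded by
the norm, `EuclideanSpace.norm_eq`/`PiLp.norm_apply_le`), `e = EuclideanSpace.single 0 1`.  With
`b i := !₂ vector (fun j => C i j / q)` we have `⟪b i, b j⟫ = C i j / q` (`idem`).  Take
`L` = range of the additive map `z ↦ ∑ i, z i • b i` (`z : Fin (n+1) → ℤ`), `v = b 0`.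
`sub`: every `x ∈ span L` satisfies `⟪x, b i⟫ = x i` (`Submodule.span_induction`; true for
`x = b j` by `idem`, `symm`), so `x ∈ dual L` has integer coordinates.  `refl`: `q • b i ∈ dual L`
(`⟪q • b i, b j⟫ = C i j`), so `b i ∈ span (dual L)`.  `proj`: `⟪b 0, b j⟫ = C 0 j / q = b j 0`.
`eb`: `Dat.eb` divided by `q`.  `‖b 0‖ ^ 2 = C 0 0 / q`. -/
theorem Dat.exists_good {n : ℕ} {q : ℤ} {C : Fin (n + 1) → Fin (n + 1) → ℤ} (h : Dat q C) :
    ∃ (L : AddSubgroup (EuclideanSpace ℝ (Fin (n + 1)))) (v : EuclideanSpace ℝ (Fin (n + 1))),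
      Good {x : EuclideanSpace ℝ (Fin (n + 1)) | ∀ i, ∃ m : ℤ, x i = (m : ℝ)}
        (EuclideanSpace.single 0 1) L v ∧
        ‖v‖ ^ 2 = (C 0 0 : ℝ) / q := by
  have q0 : (q : ℝ) ≠ 0 := Int.cast_ne_zero.2 h.pos.ne'
  let b : Fin (n + 1) → EuclideanSpace ℝ (Fin (n + 1)) := fun i => WithLp.toLp 2 fun j => (C i j : ℝ) / q
  have bb : ∀ i j, ⟪b i, b j⟫_ℝ = (C i j : ℝ) / q := fun i j => by
    have := congrArg (Int.cast : ℤ → ℝ) (h.idem i j)
    push_cast at this
    simp only [b, PiLp.inner_apply, RCLike.inner_apply, conj_trivial, div_mul_div_comm]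
    rw [← Finset.sum_div, Finset.sum_congr rfl fun l _ => mul_comm _ _, this]
    field_simp
  let f : (Fin (n + 1) → ℤ) →+ EuclideanSpace ℝ (Fin (n + 1)) :=
    AddMonoidHom.mk' (fun z => ∑ i, (z i : ℝ) • b i) fun x y => by
      simp [add_smul, Finset.sum_add_distrib]
  have fa : ∀ z, f z = ∑ i, (z i : ℝ) • b i := fun _ => rfl
  have bL : ∀ i, b i ∈ f.range := fun i => ⟨Pi.single i 1, by
    rw [fa, Finset.sum_eq_single i (fun j _ hj => by simp [hj]) (by simp)]
    simp⟩
  have fi : ∀ x z, ⟪x, f z⟫_ℝ = ∑ i, (z i : ℝ) * ⟪x, b i⟫_ℝ := fun x z => by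
    simp only [fa, inner_sum, real_inner_smul_right]
  have eb : ∀ j, ⟪EuclideanSpace.single (0 : Fin (n + 1)) (1 : ℝ), b j⟫_ℝ = (C j 0 : ℝ) / q := fun j => by
    simp [b, EuclideanSpace.inner_single_left]
  have sp : ∀ x ∈ Submodule.span ℝ (f.range : Set (EuclideanSpace ℝ (Fin (n + 1)))), ∀ i, ⟪x, b i⟫_ℝ = x i := by
    intro x hx i
    induction hx using Submodule.span_induction with
    | mem x hx =>
      obtain ⟨z, rfl⟩ := hx
      rw [real_inner_comm, fi, fa]
      simp only [bb, WithLp.ofLp_sum, Finset.sum_apply, WithLp.ofLp_smul, Pi.smul_apply, smul_eq_mul, h.symm i]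
      rfl
    | zero => simp
    | add x y _ _ a c => simp [inner_add_left, a, c]
    | smul c x _ a => simp [real_inner_smul_left, a]
  refine ⟨f.range, b 0, ⟨fun x hx i => sp x hx.1 i ▸ hx.2 _ (bL i), ?_, Submodule.subset_span (bL 0), ?_, ?_⟩, ?_⟩
  · rintro _ ⟨z, rfl⟩
    rw [fa]
    refine Submodule.sum_mem _ fun i _ => Submodule.smul_mem _ _ ?_
    rw [← inv_smul_smul₀ q0 (b i)]
    refine Submodule.smul_mem _ _ (Submodule.subset_span ⟨Submodule.smul_mem _ _ (Submodule.subset_span (bL i)), ?_⟩)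
    rintro _ ⟨y, rfl⟩
    refine ⟨∑ j, y j * C i j, ?_⟩
    rw [fi]
    push_cast
    exact Finset.sum_congr rfl fun j _ => by rw [real_inner_smul_left, bb, mul_div_cancel₀ _ q0]
  · rintro _ ⟨z, rfl⟩
    rw [fi, fi]
    exact Finset.sum_congr rfl fun j _ => by rw [bb, eb, h.symm]
  · rintro _ ⟨z, rfl⟩
    have h1 : (-(∑ i, z i * C i 0 : ℤ) : ℝ) ≤ (∑ i, ∑ j, z i * z j * C i j : ℤ) := by exact_mod_cast h.eb z
    push_cast at h1
    have h2 := div_le_div_of_nonneg_right h1 (Int.cast_pos.2 h.pos).le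
    rw [← real_inner_self_eq_norm_sq, fi, fi]
    refine le_of_eq_of_le ?_ (h2.trans_eq (Eq.symm ?_))
    · rw [neg_div, Finset.sum_div]
      exact congrArg _ (Finset.sum_congr rfl fun j _ => by rw [eb, mul_div_assoc])
    · rw [Finset.sum_div]
      refine Finset.sum_congr rfl fun i _ => ?_
      rw [real_inner_comm, fi, Finset.mul_sum, Finset.sum_div]
      exact Finset.sum_congr rfl fun j _ => by rw [bb]; ring
  · rw [← real_inner_self_eq_norm_sq, bb]

theorem finB_int (n : ℕ) : 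
    FinB {x : EuclideanSpace ℝ (Fin n) | ∀ i, ∃ m : ℤ, x i = (m : ℝ)} := by
  intro R
  refine ((Set.Finite.pi' (t := fun _ : Fin n => Set.Icc ⌊-R⌋ ⌈R⌉) fun _ => Set.finite_Icc _ _).image
    fun z => (WithLp.toLp 2 fun i => (z i : ℝ) : EuclideanSpace ℝ (Fin n))).subset ?_
  rintro x ⟨h1, h2⟩
  choose z hz using h1
  refine ⟨z, fun i => ?_, by ext i; simp [hz]⟩
  have := abs_le.1 ((PiLp.norm_apply_le x i).trans h2)
  rw [hz] at this
  exact ⟨Int.floor_le_iff.2 (by linarith [this.1]), Int.le_ceil_iff.2 (by linarith [this.2])⟩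

/-- If infinite, `Infinite.exists_strictMono_or_strictAnti` (on the subtype) gives a strictly
monotone sequence `r i = C i 0 0 / q i`; increasing contradicts `acc` for `C i`, decreasing
contradicts `acc` for the complementary matrices (corner entry `1 - r i`). -/
theorem fin_ratio (n : ℕ) : {r : ℚ | ∃ (q : ℤ) (C : Fin (n + 1) → Fin (n + 1) → ℤ), Dat q C ∧
    Dat q (fun i j => (if i = j then q else 0) - C i j) ∧ r = (C 0 0 : ℚ) / q}.Finite := by
  have k : ∀ (q : ℕ → ℤ) (C : ℕ → Fin (n + 1) → Fin (n + 1) → ℤ), (∀ i, Dat (q i) (C i)) →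
      ¬ StrictMono fun i => (C i 0 0 : ℚ) / q i := fun q C h hs => by
    choose L v h1 h2 using fun i => (h i).exists_good
    refine acc (finB_int _) _ L v h1 fun i j hij => ?_
    have := Rat.cast_strictMono (K := ℝ) (hs hij)
    simpa [h2] using this
  by_contra hi
  have := Set.infinite_coe_iff.2 hi
  obtain ⟨f, hf⟩ := Infinite.exists_strictMono_or_strictAnti {r : ℚ | ∃ (q : ℤ) (C : Fin (n + 1) → Fin (n + 1) → ℤ),
    Dat q C ∧ Dat q (fun i j => (if i = j then q else 0) - C i j) ∧ r = (C 0 0 : ℚ) / q}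
  choose q C h1 h2 h3 using fun i => (f i).2
  rcases hf with hf | hf
  · exact k q C h1 fun i j hij => by
      simpa only [← h3] using (show (f i : ℚ) < f j from hf hij)
  · refine k q _ h2 fun i j hij => ?_
    have : (f j : ℚ) < f i := hf hij
    have a : (q i : ℚ) ≠ 0 := Int.cast_ne_zero.2 (h1 i).pos.ne'
    have b : (q j : ℚ) ≠ 0 := Int.cast_ne_zero.2 (h1 j).pos.ne'
    rw [h3, h3] at this
    simp only [if_true, Int.cast_sub, sub_div, div_self a, div_self b]
    linarith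

end Cfsg.Agent.EBall
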